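import Cfsg.Agent.Lib.Transfer.Frobenius
import Cfsg.Agent.Lib.Transfer.Abelian
import Cfsg.Agent.Lib.Fgs.ClassSize
import Cfsg.Agent.Lib.LAE.Cores
import Cfsg.Agent.Lib.Core.MinNormal
import Cfsg.Agent.Lib.Coprime.Hall

/-!
The number `kp p G` of classes of `p`-elements and `kpi π G` of classes of `π`-elements:
upper bounds in terms of a Sylow subgroup, and `kpi π G ≤ kp r G * |G|_{π \ r}`.
-/

set_option autoImplicit false

namespace CfsgLib.Solv

open Subgroup Cfsg

universe u

/-- The number of conjugacy classes of `p`-elements. -/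
noncomputable def kp (p : ℕ) (G : Type u) [Group G] : ℕ :=
  Nat.card {c : ConjClasses G // ∀ x ∈ c.carrier, ∃ k : ℕ, orderOf x = p ^ k}

/-- The number of conjugacy classes of `π`-elements. -/
noncomputable def kpi (π : Finset ℕ) (G : Type u) [Group G] : ℕ :=
  Nat.card {c : ConjClasses G // ∀ x ∈ c.carrier, ∀ r : ℕ, r.Prime → r ∣ orderOf x → r ∈ π}

/-- The `π`-part of the order. -/
noncomputable def ppart (π : Finset ℕ) (G : Type u) [Group G] : ℕ :=
  π.prod fun r => r ^ (Nat.card G).factorization r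

variable {G : Type u} [Group G] [Finite G]

omit [Finite G] in
theorem orderOf_eq_of_mem_carrier {x y : G} (h : y ∈ (ConjClasses.mk x).carrier) :
    orderOf y = orderOf x := by
  obtain ⟨g, hg⟩ := isConj_iff.1 (ConjClasses.mk_eq_mk_iff_isConj.1
    (ConjClasses.mem_carrier_iff_mk_eq.1 h))
  rw [← hg, orderOf_conj_eq]
where
  orderOf_conj_eq {g y : G} : orderOf y = orderOf (g * y * g⁻¹) :=
    ((MulAut.conj g).orderOf_eq y).symm

theorem exists_mem_sylow_mk_eq {p : ℕ} [Fact p.Prime] (P : Sylow p G) {c : ConjClasses G}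
    (hc : ∀ x ∈ c.carrier, ∃ k : ℕ, orderOf x = p ^ k) :
    ∃ y ∈ (P : Subgroup G), ConjClasses.mk y = c := by
  obtain ⟨x, rfl⟩ := ConjClasses.mk_surjective c
  obtain ⟨g, -, hg⟩ := (Tech.IsSylowIn.of_sylow_top P).exists_conj_mem (mem_top x)
    (Tech.isPGroup_zpowers_iff.2 (hc x ConjClasses.mem_carrier_mk))
  exact ⟨_, hg, (ConjClasses.mk_eq_mk_iff_isConj.2 (isConj_iff.2 ⟨g, rfl⟩)).symm⟩

/-- Weighted bound for the number of classes of `p`-elements. -/
theorem kp_le_sum {p : ℕ} [Fact p.Prime] (P : Sylow p G) [Fintype (P : Subgroup G)]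
    (w : ↥(P : Subgroup G) → ℚ)
    (hw : ∀ x : (P : Subgroup G), ∃ T : Finset G, (∀ y ∈ T, y ∈ (P : Subgroup G) ∧ IsConj (x : G) y) ∧
      1 ≤ w x * T.card) : (kp p G : ℚ) ≤ ∑ x, w x := by
  classical
  let f : ↥(P : Subgroup G) → ConjClasses G := fun x => ConjClasses.mk (x : G)
  let n : ConjClasses G → ℕ := fun c => (Finset.univ.filter fun y => f y = c).card
  have h1 : kp p G ≤ (Finset.univ.image f).card := by
    rw [kp, ← Nat.card_eq_finsetCard]
    refine Nat.card_le_card_of_injective (fun c => ⟨c.1, ?_⟩) fun a b h => ?_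
    · obtain ⟨y, hy, h⟩ := exists_mem_sylow_mk_eq P c.2
      exact Finset.mem_image.2 ⟨⟨y, hy⟩, Finset.mem_univ _, h⟩
    · exact Subtype.ext (Subtype.mk.inj h)
  have h2 : ((Finset.univ.image f).card : ℚ) = ∑ x, ((n (f x) : ℚ))⁻¹ := by
    rw [Finset.sum_comp (fun c => ((n c : ℚ))⁻¹) f, Finset.card_eq_sum_ones, Nat.cast_sum]
    refine Finset.sum_congr rfl fun c hc => ?_
    obtain ⟨x, -, rfl⟩ := Finset.mem_image.1 hc
    have : (n (f x) : ℚ) ≠ 0 := Nat.cast_ne_zero.2 (Finset.card_pos.2 ⟨x, by simp⟩).ne'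
    rw [nsmul_eq_mul, mul_inv_cancel₀ this, Nat.cast_one]
  refine (Nat.cast_le.2 h1).trans (h2.le.trans (Finset.sum_le_sum fun x _ => ?_))
  obtain ⟨T, hT, hw⟩ := hw x
  have h3 : T.card ≤ n (f x) := by
    simp only [n]
    rw [← Finset.card_map (Function.Embedding.subtype _) (s := Finset.univ.filter _)]
    refine Finset.card_le_card fun y hy => Finset.mem_map.2 ⟨⟨y, (hT y hy).1⟩, ?_, rfl⟩
    simpa [f] using (ConjClasses.mk_eq_mk_iff_isConj.2 (hT y hy).2).symm
  have h4 : (0 : ℚ) < n (f x) := Nat.cast_pos.2 (Finset.card_pos.2 ⟨x, by simp⟩)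
  have h5 : 0 ≤ w x := by
    by_contra h
    have : (0 : ℚ) ≤ T.card := Nat.cast_nonneg _
    nlinarith
  rw [inv_le_iff_one_le_mul₀ h4]
  exact hw.trans (mul_le_mul_of_nonneg_left (Nat.cast_le.2 h3) h5)

omit [Finite G] in
theorem sum_ite_mem {P A : Subgroup G} [Fintype P] (h : A ≤ P) [DecidablePred (· ∈ A)] (c : ℚ) :
    ∑ x : P, (if (x : G) ∈ A then c else 0) = c * Nat.card A := by
  rw [← Finset.sum_filter, Finset.sum_const, nsmul_eq_mul, mul_comm, ← Core.card_subgroupOf_of_le h,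
    ← Nat.card_eq_finsetCard]
  congr 2
  exact Nat.card_congr (Equiv.subtypeEquivRight fun x => by simp [mem_subgroupOf])

theorem mul_card_le_of_lt {p : ℕ} [hp : Fact p.Prime] {A P : Subgroup G} (hP : IsPGroup p P)
    (h : A < P) : p * Nat.card A ≤ Nat.card P := by
  obtain ⟨k, hk⟩ := IsPGroup.iff_card.1 hP
  have h1 := Core.card_mul_relIndex_of_le h.le
  obtain ⟨j, -, hj⟩ := (Nat.dvd_prime_pow hp.out).1 (hk ▸ relIndex_dvd_card A P)
  have h2 : j ≠ 0 := by
    rintro rfl
    exact h.not_ge (relIndex_eq_one.1 hj)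
  rw [← h1, mul_comm, hj]
  exact Nat.mul_le_mul_left _ (Nat.le_self_pow h2 p)

/-- A non-central element of a `p`-group `P` has at least `p` conjugates in `P`. -/
theorem exists_conj_finset {p : ℕ} [hp : Fact p.Prime] {P : Subgroup G} (hP : IsPGroup p P) {x : G}
    (hx : x ∈ P) (hc : x ∉ centralizer (P : Set G)) :
    ∃ T : Finset G, (∀ y ∈ T, y ∈ P ∧ IsConj x y) ∧ p ≤ T.card := by
  classical
  have := Fintype.ofFinite P
  refine ⟨(Finset.univ.filter fun y : P => IsConj (⟨x, hx⟩ : P) y).map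
    (Function.Embedding.subtype _), fun y hy => ?_, ?_⟩
  · obtain ⟨z, hz, rfl⟩ := Finset.mem_map.1 hy
    exact ⟨z.2, P.subtype.map_isConj (Finset.mem_filter.1 hz).2⟩
  · rw [Finset.card_map, Fgs.card_filter_isConj_eq_index]
    obtain ⟨j, hj⟩ := hP.index (centralizer ({⟨x, hx⟩} : Set P))
    have h2 : j ≠ 0 := by
      rintro rfl
      exact hc fun y hy => congrArg Subtype.val
        (mem_center_iff.1 (Fgs.index_cent_eq_one_iff.1 hj) ⟨y, hy⟩)
    rw [hj]
    exact Nat.le_self_pow h2 p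

theorem kp_le_center {p : ℕ} [hp : Fact p.Prime] (P : Sylow p G) :
    (p : ℚ) * kp p G ≤ Nat.card (P : Subgroup G) +
      (p - 1) * Nat.card ((P : Subgroup G) ⊓ centralizer (P : Set G) : Subgroup G) := by
  classical
  have := Fintype.ofFinite (P : Subgroup G)
  have hp0 : (0 : ℚ) < p := Nat.cast_pos.2 hp.out.pos
  have h := kp_le_sum P (fun x => (p : ℚ)⁻¹ + if (x : G) ∈ (P : Subgroup G) ⊓ centralizer (P : Set G)
    then 1 - (p : ℚ)⁻¹ else 0) fun x => by
    by_cases hx : (x : G) ∈ centralizer (P : Set G)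
    · exact ⟨{x.1}, 
        fun y hy => by rw [Finset.mem_singleton.1 hy]; exact ⟨x.2, IsConj.refl _⟩, by simp [hx]⟩
    · obtain ⟨T, hT, hc⟩ := exists_conj_finset P.isPGroup' x.2 hx
      refine ⟨T, hT, ?_⟩
      simp only [mem_inf, hx, and_false, if_false, add_zero]
      rw [inv_mul_eq_div, one_le_div hp0]
      exact Nat.cast_le.2 hc
  rw [Finset.sum_add_distrib, sum_ite_mem inf_le_left, Finset.sum_const, nsmul_eq_mul,
    Finset.card_univ, ← Nat.card_eq_fintype_card] at h
  refine (mul_le_mul_of_nonneg_left h hp0.le).trans (le_of_eq ?_)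
  field_simp

/-- Without a normal `p`-complement, a `p'`-element of prime power order acts nontrivially on a
subgroup of `P` containing `Z(P)`. -/
theorem exists_action_over_center {p : ℕ} [hp : Fact p.Prime] (P : Sylow p G)
    (h : ¬ HasNormalPComplement p G) :
    ∃ R ≤ (P : Subgroup G), (P : Subgroup G) ⊓ centralizer (P : Set G) ≤ R ∧ ∃ q : ℕ, q.Prime ∧
      q ≠ p ∧ q ∣ Nat.card G ∧ ∃ y ∈ normalizer (R : Set G), (∃ k, y ^ q ^ k = 1) ∧
      y ∉ centralizer (R : Set G) := by
  by_contra hc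
  push Not at hc
  refine h (Transfer.frobenius_of_forall_centralizer' P fun Q hQ _ hsyl g hg hgo => ?_)
  have hNC := LAE.normalizer_le_normalizer_centralizer Q
  have hT := hsyl.inf_of_le_normalizer hNC
  obtain ⟨n, hn, hgn⟩ := hT.frattini' (g := g) (LAE.le_normalizer_inf le_normalizer hNC hg)
  set T := (P : Subgroup G) ⊓ normalizer (Q : Set G) ⊓ centralizer (Q : Set G)
  have hZ : (P : Subgroup G) ⊓ centralizer (P : Set G) ≤ T := by
    have := inf_le_right.trans (LAE.centralizer_anti hQ) (a := (P : Subgroup G) ⊓ _)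
    exact le_inf (le_inf inf_le_left (this.trans (centralizer_le_normalizer _))) this
  obtain ⟨a, b, -, hb, hab, hcomm, ⟨k, hk⟩, hbo⟩ := Fgs.exists_p_part p (g * n)
  have hbN : zpowers b ≤ normalizer ((Q ⊔ T : Subgroup G) : Set G) :=
    (zpowers_le.2 hb).trans (LAE.le_normalizer_sup (zpowers_le.2 (mul_mem hg hn.1))
      (zpowers_le.2 hgn))
  have hbC : b ∈ centralizer (Q : Set G) := LAE.centralizer_anti le_sup_left <|
    Transfer.mem_of_forall_prime_pow_mem _ b fun q hq hqd y hy hyk =>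
      hc (Q ⊔ T) (sup_le hQ (inf_le_left.trans inf_le_left)) (hZ.trans le_sup_right) q hq
        (fun h => hbo (h ▸ hqd)) (hqd.trans (orderOf_dvd_natCard b)) y (hbN hy) hyk
  have hpow : ∀ m : ℕ, (g ^ m)⁻¹ * (g * n) ^ m ∈ centralizer (Q : Set G) := by
    intro m
    induction m with
    | zero => simp
    | succ m ih =>
      have := mul_mem (Tech.conj_mem_of_mem_normalizer' (hNC hg) ih) hn.2
      convert this using 1
      rw [pow_succ, pow_succ]; group
  have := hpow (p ^ k)
  rw [← hab, hcomm.mul_pow, ← hk, pow_orderOf_eq_one, one_mul,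
    mul_mem_cancel_right (pow_mem hbC _), inv_mem_iff, hk] at this
  exact LAE.mem_of_pow_mem_of_coprime (hgo.pow_right k) this

theorem two_mul_kp_le_of_abelian {p : ℕ} [hp : Fact p.Prime] (P : Sylow p G)
    (hab : IsMulCommutative (P : Subgroup G)) (h : ¬ HasNormalPComplement p G) :
    2 * p * kp p G ≤ (p + 1) * Nat.card (P : Subgroup G) := by
  classical
  have := Fintype.ofFinite (P : Subgroup G)
  obtain ⟨R, hRP, hZ, -, -, -, -, y, hy, -, hyc⟩ := exists_action_over_center P h
  obtain rfl : R = P := le_antisymm hRP ((le_inf le_rfl (le_centralizer _)).trans hZ)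
  have h1 := kp_le_sum P (fun x => 1 / 2 + if (x : G) ∈ (P : Subgroup G) ⊓ centralizer ({y} : Set G)
    then 1 / 2 else 0) fun x => by
    by_cases hx : (x : G) ∈ centralizer ({y} : Set G)
    · exact ⟨{x.1}, 
        fun y hy => by rw [Finset.mem_singleton.1 hy]; exact ⟨x.2, IsConj.refl _⟩, by simp [hx]; norm_num⟩
    · refine ⟨{x.1, y * x * y⁻¹}, fun z hz => ?_, ?_⟩
      · rcases Finset.mem_insert.1 hz with rfl | hz
        · exact ⟨x.2, IsConj.refl _⟩
        · rw [Finset.mem_singleton.1 hz]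
          exact ⟨Tech.conj_mem_of_mem_normalizer hy x.2, isConj_iff.2 ⟨y, rfl⟩⟩
      · rw [Finset.card_pair fun h => hx (mem_centralizer_singleton_iff.2
          (eq_mul_inv_iff_mul_eq.1 h))]
        simp [hx]
  rw [Finset.sum_add_distrib, sum_ite_mem inf_le_left, Finset.sum_const, nsmul_eq_mul,
    Finset.card_univ, ← Nat.card_eq_fintype_card] at h1
  have h2 := mul_card_le_of_lt P.isPGroup' (A := (P : Subgroup G) ⊓ centralizer ({y} : Set G))
    (lt_of_le_of_ne inf_le_left fun h => hyc fun w hw =>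
      mem_centralizer_singleton_iff.1 (inf_eq_left.1 h hw))
  have h3 : ((p : ℚ) * Nat.card ((P : Subgroup G) ⊓ centralizer ({y} : Set G) : Subgroup G)) ≤
    Nat.card (P : Subgroup G) := by exact_mod_cast h2
  have hp0 : (0 : ℚ) < p := Nat.cast_pos.2 hp.out.pos
  have : (2 * p * kp p G : ℚ) ≤ (p + 1) * Nat.card (P : Subgroup G) := by nlinarith
  exact_mod_cast this

theorem two_mul_kp_le {p : ℕ} [hp : Fact p.Prime] (P : Sylow p G)
    (hodd : ∀ q : ℕ, q.Prime → q ≠ p → q ∣ Nat.card G → q ≠ 2)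
    (h : ¬ HasNormalPComplement p G) : 2 * kp p G ≤ Nat.card (P : Subgroup G) := by
  classical
  have := Fintype.ofFinite (P : Subgroup G)
  obtain ⟨R, hRP, hZ, q, hq, hqp, hqd, y, hy, ⟨k, hk⟩, hyc⟩ := exists_action_over_center P h
  have hq2 := hodd q hq hqp hqd
  have hyo : (orderOf y).Coprime 2 :=
    (((Nat.coprime_primes hq Nat.prime_two).2 hq2).pow_left k).coprime_dvd_left
      (orderOf_dvd_of_pow_eq_one hk)
  have h1 := kp_le_sum P (fun x => (1 / 2 + if (x : G) ∈ R then -1 / 6 else 0) +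
    if (x : G) ∈ R ⊓ centralizer ({y} : Set G) then 2 / 3 else 0) fun x => by
    by_cases hxR : (x : G) ∈ R
    · by_cases hx : (x : G) ∈ centralizer ({y} : Set G)
      · exact ⟨{x.1}, 
        fun y hy => by rw [Finset.mem_singleton.1 hy]; exact ⟨x.2, IsConj.refl _⟩, by simp [hx, hxR]; norm_num⟩
      have hn : ¬ Commute y x := fun h => hx (mem_centralizer_singleton_iff.2 h.symm)
      refine ⟨{x.1, y * x * y⁻¹, y⁻¹ * x * y}, fun z hz => ?_, ?_⟩
      · simp only [Finset.mem_insert, Finset.mem_singleton] at hz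
        rcases hz with rfl | rfl | rfl
        · exact ⟨x.2, IsConj.refl _⟩
        · exact ⟨hRP (Tech.conj_mem_of_mem_normalizer hy hxR), isConj_iff.2 ⟨y, rfl⟩⟩
        · exact ⟨hRP (Tech.conj_mem_of_mem_normalizer' hy hxR), isConj_iff.2 ⟨y⁻¹, by simp⟩⟩
      · rw [Finset.card_eq_three.2 ⟨_, _, _, fun h => hn (eq_mul_inv_iff_mul_eq.1 h).symm,
          fun h => hn ?_, fun h => hx ?_, rfl⟩]
        · simp [hx, hxR]; norm_num
        · calc y * x = y * (y⁻¹ * x * y) := by rw [← h]
            _ = x * y := by group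
        · rw [mem_centralizer_singleton_iff, eq_comm, ← mem_centralizer_singleton_iff]
          refine LAE.mem_of_pow_mem_of_coprime hyo (mem_centralizer_singleton_iff.2 ?_)
          calc y ^ 2 * x = y * (y * x * y⁻¹) * y := by rw [pow_two]; group
            _ = x * y ^ 2 := by rw [h, pow_two]; group
    · obtain ⟨T, hT, hc⟩ := exists_conj_finset P.isPGroup' x.2 fun h => hxR (hZ ⟨x.2, h⟩)
      refine ⟨T, hT, ?_⟩
      have : (2 : ℚ) ≤ T.card := by exact_mod_cast hp.out.two_le.trans hc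
      simp only [mem_inf, hxR, false_and, if_false, add_zero]
      linarith
  rw [Finset.sum_add_distrib, Finset.sum_add_distrib, sum_ite_mem hRP,
    sum_ite_mem (inf_le_left.trans hRP), Finset.sum_const, nsmul_eq_mul,
    Finset.card_univ, ← Nat.card_eq_fintype_card] at h1
  have h3 : 4 * Nat.card (R ⊓ centralizer ({y} : Set G) : Subgroup G) ≤ Nat.card R := by
    have := Fact.mk hq
    have h4 := Transfer.card_modEq_card_inf_centralizer hy ⟨k, hk⟩
    have h5 := Core.card_mul_relIndex_of_le (inf_le_left : R ⊓ centralizer ({y} : Set G) ≤ R)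
    set c := Nat.card (R ⊓ centralizer ({y} : Set G) : Subgroup G) with hc
    set m := (R ⊓ centralizer ({y} : Set G)).relIndex R with hm
    have hm1 : m ≠ 1 := fun h => hyc fun w hw =>
      mem_centralizer_singleton_iff.1 (relIndex_eq_one.1 h hw).2
    have hm0 : m ≠ 0 := index_ne_zero_of_finite
    obtain ⟨j, hj⟩ := IsPGroup.iff_card.1
      (P.isPGroup'.to_le (inf_le_left.trans hRP : R ⊓ centralizer ({y} : Set G) ≤ P))
    have hcq : Nat.Coprime q c := by
      rw [hc, hj]; exact ((Nat.coprime_primes hq hp.out).2 hqp).pow_right j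
    have h6 : m ≡ 1 [MOD q] := by
      rw [← h5] at h4
      exact Nat.ModEq.cancel_left_of_coprime hcq (by rwa [mul_one])
    have h7 : q ∣ m - 1 := (Nat.modEq_iff_dvd' (by omega)).1 h6.symm
    have h8 := Nat.le_of_dvd (by omega) h7
    have h9 := hq.two_le
    rw [← h5, mul_comm]
    exact Nat.mul_le_mul_left _ (by omega)
  have h4 : (4 * Nat.card (R ⊓ centralizer ({y} : Set G) : Subgroup G) : ℚ) ≤ Nat.card R := by
    exact_mod_cast h3
  have : (2 * kp p G : ℚ) ≤ Nat.card (P : Subgroup G) := by linarith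
  exact_mod_cast this

/-- Classes of `p`-elements come from any subgroup containing a Sylow `p`-subgroup. -/
theorem kp_le_kp_of_le {p : ℕ} [Fact p.Prime] (P : Sylow p G) {K : Subgroup G}
    (h : (P : Subgroup G) ≤ K) : kp p G ≤ kp p K := by
  refine Nat.card_le_card_of_surjective (fun c => ⟨ConjClasses.map K.subtype c.1, ?_⟩) fun c => ?_
  · obtain ⟨c, hc⟩ := c
    obtain ⟨x, rfl⟩ := ConjClasses.mk_surjective c
    intro y hy
    rw [orderOf_eq_of_mem_carrier (x := (x : G)) hy, Subgroup.orderOf_coe]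
    exact hc x ConjClasses.mem_carrier_mk
  · obtain ⟨y, hy, hc⟩ := exists_mem_sylow_mk_eq P c.2
    refine ⟨⟨ConjClasses.mk ⟨y, h hy⟩, fun z hz => ?_⟩, Subtype.ext hc⟩
    rw [orderOf_eq_of_mem_carrier hz, ← Subgroup.orderOf_coe]
    exact Fgs.orderOf_eq_pow_of_mem_isPGroup P.isPGroup' hy

theorem kp_le_card_conjClasses {p : ℕ} [Fact p.Prime] (P : Sylow p G) :
    kp p G ≤ Nat.card (ConjClasses (P : Subgroup G)) :=
  (kp_le_kp_of_le P le_rfl).trans (Nat.card_le_card_of_injective _ Subtype.val_injective)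

theorem kp_le_card {p : ℕ} [Fact p.Prime] (P : Sylow p G) : kp p G ≤ Nat.card (P : Subgroup G) :=
  (kp_le_card_conjClasses P).trans (Nat.card_le_card_of_surjective _ ConjClasses.mk_surjective)

theorem card_conjClasses_le_kp {p : ℕ} [Fact p.Prime] (P : Sylow p G)
    (h : HasNormalPComplement p G) : Nat.card (ConjClasses (P : Subgroup G)) ≤ kp p G := by
  refine Nat.card_le_card_of_injective
    (fun c => ⟨ConjClasses.map (P : Subgroup G).subtype c, ?_⟩) fun c d hcd => ?_
  · obtain ⟨x, rfl⟩ := ConjClasses.mk_surjective c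
    intro y hy
    rw [orderOf_eq_of_mem_carrier (x := (x : G)) hy]
    exact Fgs.orderOf_eq_pow_of_mem_isPGroup P.isPGroup' x.2
  · obtain ⟨x, rfl⟩ := ConjClasses.mk_surjective c
    obtain ⟨y, rfl⟩ := ConjClasses.mk_surjective d
    have h1 : ConjClasses.mk (x : G) = ConjClasses.mk (y : G) := congrArg Subtype.val hcd
    obtain ⟨g, hg⟩ := isConj_iff.1 (ConjClasses.mk_eq_mk_iff_isConj.1 h1)
    obtain ⟨u, hu, h2⟩ := (Transfer.hasNormalPComplement_iff_control P).1 h x x.2 g (hg ▸ y.2)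
    exact ConjClasses.mk_eq_mk_iff_isConj.2 (isConj_iff.2 ⟨⟨u, hu⟩, Subtype.ext (h2.symm.trans hg)⟩)

theorem card_le_kp {p : ℕ} [Fact p.Prime] (P : Sylow p G) (h : HasNormalPComplement p G)
    (hab : IsMulCommutative (P : Subgroup G)) : Nat.card (P : Subgroup G) ≤ kp p G := by
  refine le_trans (Nat.card_le_card_of_injective ConjClasses.mk fun x y hxy => ?_)
    (card_conjClasses_le_kp P h)
  obtain ⟨g, hg⟩ := isConj_iff.1 (ConjClasses.mk_eq_mk_iff_isConj.1 hxy)
  rw [← hg, hab.is_comm.comm g x, mul_inv_cancel_right]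

omit [Finite G] in
theorem center_lt_of_not_comm {P : Subgroup G} (h : ¬ IsMulCommutative P) :
    P ⊓ centralizer (P : Set G) < P :=
  lt_of_le_of_ne inf_le_left fun hc => h ⟨⟨fun x y => Subtype.ext
    (inf_eq_left.1 hc y.2 x x.2)⟩⟩

/-- S3897. -/
theorem kp_odd_iff {p : ℕ} [hp : Fact p.Prime] (hp2 : p ≠ 2) (P : Sylow p G) :
    (p + 1) * Nat.card (P : Subgroup G) < 2 * p * kp p G ↔
      HasNormalPComplement p G ∧ IsMulCommutative (P : Subgroup G) := by
  have h3 : 3 ≤ p := by have := hp.out.two_le; omega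
  have hpos : 0 < Nat.card (P : Subgroup G) := Nat.card_pos
  constructor
  · intro h
    have hab : IsMulCommutative (P : Subgroup G) := by
      by_contra hc
      have h1 := kp_le_center P
      have h2 : ((p : ℚ) * Nat.card ((P : Subgroup G) ⊓ centralizer (P : Set G) : Subgroup G)) ≤
        Nat.card (P : Subgroup G) := by
        exact_mod_cast mul_card_le_of_lt P.isPGroup' (center_lt_of_not_comm hc)
      have h4 : ((p + 1) * Nat.card (P : Subgroup G) : ℚ) < 2 * p * kp p G := by exact_mod_cast h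
      have h5 : (3 : ℚ) ≤ p := by exact_mod_cast h3
      have h6 : (0 : ℚ) ≤ Nat.card ((P : Subgroup G) ⊓ centralizer (P : Set G) : Subgroup G) :=
        Nat.cast_nonneg _
      nlinarith
    refine ⟨?_, hab⟩
    by_contra hc
    exact h.not_ge (two_mul_kp_le_of_abelian P hab hc)
  · rintro ⟨h1, h2⟩
    have := card_le_kp P h1 h2
    nlinarith

/-- S3895. -/
theorem kp_two_iff (P : Sylow 2 G) :
    Nat.card (P : Subgroup G) < 2 * kp 2 G ↔ HasNormalPComplement 2 G ∧
      Nat.card (P : Subgroup G) < 2 * Nat.card (ConjClasses (P : Subgroup G)) := by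
  constructor
  · intro h
    refine ⟨?_, h.trans_le (Nat.mul_le_mul_left _ (kp_le_card_conjClasses P))⟩
    by_contra hc
    exact h.not_ge (two_mul_kp_le P (fun q _ hq _ => hq) hc)
  · rintro ⟨h1, h2⟩
    exact h2.trans_le (Nat.mul_le_mul_left _ (card_conjClasses_le_kp P h1))

theorem kp_of_odd_card {p : ℕ} [hp : Fact p.Prime] (hp2 : p ≠ 2) (hG : Odd (Nat.card G))
    (P : Sylow p G) (h : Nat.card (P : Subgroup G) < 2 * kp p G) :
    HasNormalPComplement p G ∧ IsMulCommutative (P : Subgroup G) := by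
  have h3 : 3 ≤ p := by have := hp.out.two_le; omega
  constructor
  · by_contra hc
    refine h.not_ge (two_mul_kp_le P (fun q _ _ hq => ?_) hc)
    rintro rfl
    exact (Nat.not_even_iff_odd.2 hG) (even_iff_two_dvd.2 hq)
  · by_contra hc
    have h1 := kp_le_center P
    obtain ⟨x, hx, hxc⟩ := SetLike.exists_of_lt (center_lt_of_not_comm hc)
    have hxc' : x ∉ centralizer (P : Set G) := fun h => hxc ⟨hx, h⟩
    have h2 := mul_card_le_of_lt (P.isPGroup'.to_le inf_le_left)
      (show (P : Subgroup G) ⊓ centralizer (P : Set G) <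
          (P : Subgroup G) ⊓ centralizer ({x} : Set G) from
        lt_of_le_of_ne (inf_le_inf_left _ (centralizer_le (Set.singleton_subset_iff.2 hx)))
          fun h => hxc (h ▸ ⟨hx, Fgs.self_mem_cent x⟩))
    have h4 := mul_card_le_of_lt P.isPGroup' (A := (P : Subgroup G) ⊓ centralizer ({x} : Set G))
      (lt_of_le_of_ne inf_le_left fun h => hxc' fun w hw =>
        mem_centralizer_singleton_iff.1 (inf_eq_left.1 h hw))
    have h5 : ((p : ℚ) * p * Nat.card ((P : Subgroup G) ⊓ centralizer (P : Set G) : Subgroup G)) ≤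
        Nat.card (P : Subgroup G) := by
      rw [mul_assoc]
      exact_mod_cast (Nat.mul_le_mul_left p h2).trans h4
    have h6 : (Nat.card (P : Subgroup G) : ℚ) < 2 * kp p G := by exact_mod_cast h
    have h7 : (3 : ℚ) ≤ p := by exact_mod_cast h3
    have h8 : (0 : ℚ) ≤ Nat.card ((P : Subgroup G) ⊓ centralizer (P : Set G) : Subgroup G) :=
      Nat.cast_nonneg _
    generalize ((Nat.card ((P : Subgroup G) ⊓ centralizer (P : Set G) : Subgroup G) : ℕ) : ℚ) = z
      at *
    generalize ((Nat.card (P : Subgroup G) : ℕ) : ℚ) = n at *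
    have h9 : 3 * (p * z) ≤ n := by
      nlinarith [mul_nonneg (mul_nonneg (by linarith : (0:ℚ) ≤ p - 3)
        (by linarith : (0 : ℚ) ≤ p)) h8]
    nlinarith

end CfsgLib.Solv
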