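import Cfsg.Agent.Lib.Solv.PiClasses

/-!
`kpi π G ≤ kp r G * |G|_{π \ r}` and the structure of groups with many classes of `π`-elements.
-/

set_option autoImplicit false

namespace CfsgLib.Solv

open Subgroup Cfsg

universe u

theorem kpi_insert_le {G : Type u} [Group G] [Finite G] {r : ℕ} (hr : r.Prime) (σ : Finset ℕ)
    {m : ℕ} (hm : ∀ x : G, kpi σ (centralizer ({x} : Set G)) ≤ m) :
    kpi (insert r σ) G ≤ kp r G * m := by
  classical
  have := Fact.mk hr
  choose rep hrep using (ConjClasses.mk_surjective (α := G))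
  let I := {c : ConjClasses G // ∀ x ∈ c.carrier, ∃ k : ℕ, orderOf x = r ^ k}
  let J : I → Type u := fun c => {d : ConjClasses (centralizer ({rep c.1} : Set G)) //
    ∀ x ∈ d.carrier, ∀ s : ℕ, s.Prime → s ∣ orderOf x → s ∈ σ}
  let f : (Σ c : I, J c) → ConjClasses G := fun z =>
    ConjClasses.mk (rep z.1.1 * (ConjClasses.mk_surjective z.2.1).choose)
  have := Fintype.ofFinite I
  have h1 : kpi (insert r σ) G ≤ Nat.card (Set.range f) := by
    refine Nat.card_le_card_of_injective (fun c => ⟨c.1, ?_⟩) fun a b h =>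
      Subtype.ext (Subtype.mk.inj h)
    obtain ⟨c, hc⟩ := c
    obtain ⟨x, rfl⟩ := ConjClasses.mk_surjective c
    obtain ⟨a, b, -, hb, hab, hcomm, hao, hbo⟩ := Fgs.exists_p_part r x
    obtain ⟨g, hg⟩ := isConj_iff.1 (ConjClasses.mk_eq_mk_iff_isConj.1
      (hrep (ConjClasses.mk a)).symm)
    have hb0 : g * b * g⁻¹ ∈ centralizer ({rep (ConjClasses.mk a)} : Set G) := by
      rw [← hg, Fgs.mem_cent_iff]
      exact hcomm.map (MulAut.conj g)
    let c : I := ⟨ConjClasses.mk a, fun y hy => orderOf_eq_of_mem_carrier hy ▸ hao⟩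
    let d : J c := ⟨ConjClasses.mk ⟨_, hb0⟩, fun y hy s hs hd => by
      rw [orderOf_eq_of_mem_carrier hy, ← Subgroup.orderOf_coe] at hd
      have hd' : s ∣ orderOf b := by rwa [← (MulAut.conj g).orderOf_eq b]
      exact (Finset.mem_insert.1 (hc x ConjClasses.mem_carrier_mk s hs
        (hd'.trans (orderOf_dvd_of_mem_zpowers hb)))).resolve_left fun h => hbo (h ▸ hd')⟩
    refine ⟨⟨c, d⟩, ?_⟩
    obtain ⟨h, hh⟩ := isConj_iff.1 (ConjClasses.mk_eq_mk_iff_isConj.1
      (ConjClasses.mk_surjective d.1).choose_spec.symm)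
    simp only [f]
    rw [← hh]
    refine (ConjClasses.mk_eq_mk_iff_isConj.2 (isConj_iff.2 ⟨h * g, ?_⟩)).symm
    have h2 : (h : G) * rep (ConjClasses.mk a) = rep (ConjClasses.mk a) * h :=
      mem_centralizer_singleton_iff.1 h.2
    change _ = rep (ConjClasses.mk a) * (h * (g * b * g⁻¹) * (h : G)⁻¹)
    calc h * g * x * (h * g)⁻¹ = h * (g * a * g⁻¹) * (g * b * g⁻¹) * (h : G)⁻¹ := by
          rw [← hab]; group
      _ = _ := by rw [hg, h2]; group
  refine h1.trans ((Finite.card_range_le f).trans ?_)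
  rw [Nat.card_sigma, kp, Nat.card_eq_fintype_card (α := I), ← Finset.card_univ, ← smul_eq_mul]
  exact Finset.sum_le_card_nsmul _ _ _ fun c _ => hm _

theorem ppart_le {G : Type u} [Group G] [Finite G] {σ : Finset ℕ} (hσ : ∀ r ∈ σ, r.Prime)
    (H : Subgroup G) : ppart σ H ≤ ppart σ G :=
  Finset.prod_le_prod' fun r hr => Nat.pow_le_pow_right (hσ r hr).pos
    ((Nat.factorization_le_iff_dvd Nat.card_pos.ne' Nat.card_pos.ne').2
      (card_subgroup_dvd_card H) r)

theorem kpi_le_ppart (σ : Finset ℕ) (hσ : ∀ r ∈ σ, r.Prime) :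
    ∀ (G : Type u) [Group G] [Finite G], kpi σ G ≤ ppart σ G := by
  induction σ using Finset.induction_on with
  | empty =>
    intro G _ _
    rw [ppart, Finset.prod_empty, kpi, Finite.card_le_one_iff_subsingleton]
    have key : ∀ c : {c : ConjClasses G // ∀ x ∈ c.carrier, ∀ r : ℕ, r.Prime → r ∣ orderOf x →
        r ∈ (∅ : Finset ℕ)}, c.1 = ConjClasses.mk 1 := by
      rintro ⟨c, hc⟩
      obtain ⟨x, rfl⟩ := ConjClasses.mk_surjective c
      by_contra hne
      obtain ⟨r, hr, hd⟩ := Nat.exists_prime_and_dvd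
        (fun h => hne (congrArg ConjClasses.mk (orderOf_eq_one_iff.1 h)) : orderOf x ≠ 1)
      simpa using hc x ConjClasses.mem_carrier_mk r hr hd
    exact ⟨fun a b => Subtype.ext ((key a).trans (key b).symm)⟩
  | insert r σ hrσ ih =>
    intro G _ _
    have hr := hσ r (Finset.mem_insert_self _ _)
    have hσ' : ∀ s ∈ σ, s.Prime := fun s hs => hσ s (Finset.mem_insert_of_mem hs)
    have := Fact.mk hr
    refine (kpi_insert_le hr σ fun x => (ih hσ' _).trans (ppart_le hσ' _)).trans ?_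
    rw [ppart, ppart, Finset.prod_insert hrσ]
    refine Nat.mul_le_mul_right _ ?_
    let P : Sylow r G := default
    rw [← P.card_eq_multiplicity]
    exact kp_le_card P

/-- Passing from `π` to a single prime `r ∈ π`. -/
theorem kp_gt_of_kpi_gt {G : Type u} [Group G] [Finite G] {π : Finset ℕ} (hπ : ∀ r ∈ π, r.Prime)
    {a b : ℕ} (h : a * ppart π G < b * kpi π G) {r : ℕ} [Fact r.Prime] (hr : r ∈ π)
    (P : Sylow r G) : a * Nat.card (P : Subgroup G) < b * kp r G := by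
  have hσ : ∀ s ∈ π.erase r, s.Prime := fun s hs => hπ s (Finset.mem_of_mem_erase hs)
  have h1 := kpi_insert_le (G := G) (hπ r hr) (π.erase r) fun x =>
    (kpi_le_ppart _ hσ _).trans (ppart_le hσ _)
  rw [Finset.insert_erase hr] at h1
  have h2 : ppart π G = Nat.card (P : Subgroup G) * ppart (π.erase r) G := by
    rw [P.card_eq_multiplicity, ppart, ppart, Finset.mul_prod_erase π
      (fun r => r ^ (Nat.card G).factorization r) hr]
  rw [h2, ← mul_assoc] at h
  have h3 := h.trans_le (Nat.mul_le_mul_left b h1)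
  rw [← mul_assoc] at h3
  exact Nat.lt_of_mul_lt_mul_right h3

theorem pi_structure {G : Type u} [Group G] [Finite G] (σ : Set ℕ)
    (h : ∀ (r : ℕ) [Fact r.Prime], r ∈ σ → HasNormalPComplement r G ∧
      ∃ P : Sylow r G, IsMulCommutative (P : Subgroup G)) :
    ∃ N : Subgroup G, N.Characteristic ∧ (∀ r : ℕ, r.Prime → r ∣ Nat.card N → r ∉ σ) ∧
      (∀ r : ℕ, r.Prime → r ∣ N.index → r ∈ σ) ∧
      ∃ H : Subgroup G, IsPiHall σ H ∧ IsMulCommutative H := by
  let N : Subgroup G := ⨅ r : {r : ℕ // r.Prime ∧ r ∈ σ}, pResidual r G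
  have hc : N.Characteristic := characteristic_iff_le_comap.2 fun φ x hx => mem_iInf.2 fun r =>
    characteristic_iff_le_comap.1 (Transfer.pResidual_characteristic r G) φ (mem_iInf.1 hx r)
  have h1 : ∀ r : ℕ, r.Prime → r ∣ Nat.card N → r ∉ σ := fun r hr hd hσ =>
    have := Fact.mk hr
    Transfer.hasNormalPComplement_iff_not_dvd.1 (h r hσ).1
      (hd.trans (card_dvd_of_le (iInf_le _ (⟨r, hr, hσ⟩ : {r : ℕ // r.Prime ∧ r ∈ σ}))))
  have h2 : ∀ r : ℕ, r.Prime → r ∣ N.index → r ∈ σ := fun r hr hd => by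
    have := Fact.mk hr
    by_contra hσ
    let P : Sylow r G := default
    refine Fgs.not_dvd_index_of_sylow_le P (le_iInf fun s => ?_) hd
    obtain ⟨k, hk⟩ := IsPGroup.iff_card.1 P.isPGroup'
    exact Transfer.le_pResidual_of_coprime
      (hk ▸ ((Nat.coprime_primes hr s.2.1).2 fun h => hσ (h ▸ s.2.2)).pow_left k)
  obtain ⟨H, hH⟩ := exists_right_complement'_of_coprime (N := N)
    (Nat.coprime_of_dvd fun r hr hd hd' => h1 r hr hd (h2 r hr hd'))
  refine ⟨N, hc, h1, h2, H, ⟨fun r hr hd => h2 r hr ?_, fun r hr hσ hd => h1 r hr ?_ hσ⟩,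
    ⟨⟨fun x y => ?_⟩⟩⟩
  · rwa [hH.symm.index_eq_card]
  · rwa [hH.index_eq_card] at hd
  · have h3 : commutator G ≤ N := le_iInf fun r =>
      have := Fact.mk r.2.1
      (h r r.2.2).2.elim fun P hP => Transfer.commutator_le_pResidual_of_abelian_sylow P hP
    have h4 : ((x * y * x⁻¹ * y⁻¹ : H) : G) ∈ N ⊓ H :=
      ⟨h3 (commutator_mem_commutator (mem_top (x : G)) (mem_top (y : G))), Subtype.property _⟩
    rw [hH.disjoint.eq_bot, mem_bot] at h4
    have h5 : x * y * x⁻¹ * y⁻¹ = 1 := Subtype.ext h4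
    rw [mul_inv_eq_one, mul_inv_eq_iff_eq_mul] at h5
    exact h5

theorem s3899 {G : Type u} [Group G] [Finite G] (π : Finset ℕ) (hπ : ∀ r ∈ π, r.Prime)
    (h2 : 2 ∉ π) (p : ℕ) (hp : p ∈ π) (hmin : ∀ r ∈ π, p ≤ r)
    (hk : (p + 1) * ppart π G < 2 * p * kpi π G) :
    (∃ N : Subgroup G, N.Normal ∧ (∀ r : ℕ, r.Prime → r ∣ Nat.card N → r ∉ π) ∧
      ∀ r : ℕ, r.Prime → r ∣ N.index → r ∈ π) ∧
      ∃ H : Subgroup G, IsPiHall (↑π : Set ℕ) H ∧ IsMulCommutative H := by
  obtain ⟨N, hN, h3, h4, h5⟩ := pi_structure (G := G) (↑π : Set ℕ) fun r _ hr => by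
    let P : Sylow r G := default
    have h6 := kp_gt_of_kpi_gt hπ hk hr P
    have h7 := hmin r hr
    have h8 := (hπ p hp).pos
    have := (kp_odd_iff (fun h => h2 (h ▸ hr)) P).1 (by
      refine Nat.lt_of_mul_lt_mul_left (a := p) ?_
      calc p * ((r + 1) * Nat.card (P : Subgroup G)) ≤ r * ((p + 1) * Nat.card (P : Subgroup G)) := by
            rw [← mul_assoc, ← mul_assoc]
            exact Nat.mul_le_mul_right _ (by nlinarith)
        _ < r * (2 * p * kp r G) := Nat.mul_lt_mul_of_pos_left h6 (by omega)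
        _ = _ := by ring)
    exact ⟨this.1, P, this.2⟩
  exact ⟨⟨N, inferInstance, h3, h4⟩, h5⟩

theorem s3898 {G : Type u} [Group G] [Finite G] (π : Finset ℕ) (hπ : ∀ r ∈ π, r.Prime)
    (h2 : 2 ∈ π) (hk : ppart π G < 2 * kpi π G) :
    (∃ N : Subgroup G, N.Normal ∧ (∀ r : ℕ, r.Prime → r ∣ Nat.card N → r ∉ π) ∧
      ∀ r : ℕ, r.Prime → r ∣ N.index → r ∈ π) ∧
      ∃ H : Subgroup G, IsPiHall ((↑π : Set ℕ) \ {2}) H ∧ IsMulCommutative H := by
  rw [← one_mul (ppart π G)] at hk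
  have hnpc : HasNormalPComplement 2 G :=
    ((kp_two_iff default).1 (by simpa using kp_gt_of_kpi_gt hπ hk h2 default)).1
  have := Transfer.pResidual_characteristic 2 G
  set K := pResidual 2 G
  have hK : ¬ 2 ∣ Nat.card K := Transfer.hasNormalPComplement_iff_not_dvd.1 hnpc
  obtain ⟨k, hKi⟩ : ∃ k, K.index = 2 ^ k := Transfer.exists_index_pResidual
  obtain ⟨N, hN, h3, h4, H, h5, h6⟩ := pi_structure (G := K) ((↑π : Set ℕ) \ {2})
    fun r hr hrπ => by
    let P : Sylow r G := default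
    have h6 := kp_gt_of_kpi_gt hπ hk hrπ.1 P
    obtain ⟨j, hj⟩ := IsPGroup.iff_card.1 P.isPGroup'
    have hPK : (P : Subgroup G) ≤ K := Transfer.le_pResidual_of_coprime
      (hj ▸ ((Nat.coprime_primes hr.out Nat.prime_two).2 hrπ.2).pow_left j)
    have := kp_of_odd_card hrπ.2 (Nat.odd_iff.2 (Nat.two_dvd_ne_zero.1 hK)) (P.subtype hPK) (by
      rw [Sylow.coe_subtype, Core.card_subgroupOf_of_le hPK]
      rw [one_mul] at h6
      exact h6.trans_le (Nat.mul_le_mul_left _ (kp_le_kp_of_le P hPK)))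
    exact ⟨this.1, _, this.2⟩
  have hidx : ∀ (L : Subgroup K) (r : ℕ), r.Prime → r ∣ (L.map K.subtype).index →
      r ∣ L.index ∨ r = 2 := fun L r hr hd => by
    rw [index_map_subtype, hKi] at hd
    exact ((Nat.Prime.dvd_mul hr).1 hd).imp_right fun h =>
      (Nat.prime_dvd_prime_iff_eq hr Nat.prime_two).1 (hr.dvd_of_dvd_pow h)
  refine ⟨⟨N.map K.subtype, inferInstance, fun r hr hd hrπ => ?_, fun r hr hd => ?_⟩,
    H.map K.subtype, ⟨fun r hr hd => ?_, fun r hr hrπ hd => ?_⟩, inferInstance⟩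
  · rw [Core.card_map_subtype] at hd
    refine h3 r hr hd ⟨hrπ, fun h => hK ?_⟩
    rw [← Set.mem_singleton_iff.1 h]
    exact hd.trans (card_subgroup_dvd_card N)
  · exact (hidx N r hr hd).elim (fun h => (h4 r hr h).1) fun h => h ▸ h2
  · rw [Core.card_map_subtype] at hd
    exact h5.1 r hr hd
  · exact (hidx H r hr hd).elim (h5.2 r hr hrπ) hrπ.2

end CfsgLib.Solv
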